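import Mathlib

/-!
Parity of products of cocycles over invariant sets, for a normal 2-subgroup moving every point.
-/

namespace CfsgLib.CocycleParity

open MulAction Pointwise

variable {S Ω V : Type*} [Group S] [Finite S] [MulAction S Ω] [CommGroup V]

/-- `c` is a cocycle. -/
def IsCoc (c : S → Ω → V) : Prop := ∀ x y q, c (x * y) q = c x (y • q) * c y q

lemma IsCoc.one {c : S → Ω → V} (hc : IsCoc c) (q : Ω) : c 1 q = 1 := by
  have := hc 1 1 q
  simpa using this

lemma orbit_card_even {E : Subgroup S} (hE : IsPGroup 2 E) (q : Ω) (h : ∃ e ∈ E, e • q ≠ q) :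
    Even (Nat.card (orbit E q)) := by
  haveI : Fact (Nat.Prime 2) := ⟨Nat.prime_two⟩
  obtain ⟨k, hk⟩ := hE.index (stabilizer E q)
  rw [Nat.card_congr (orbitEquivQuotientStabilizer E q), ← Subgroup.index_eq_card, hk]
  rcases Nat.eq_zero_or_pos k with rfl | hk0
  · exfalso
    obtain ⟨e, he, hne⟩ := h
    rw [pow_zero, Subgroup.index_eq_one] at hk
    have : (⟨e, he⟩ : E) ∈ stabilizer E q := hk ▸ Subgroup.mem_top _
    exact hne this
  · exact (Nat.even_pow.mpr ⟨even_two, hk0.ne'⟩)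

/-- If the cocycle is trivial on point stabilisers in the normal 2-subgroup `E`, its product over an invariant set
all whose points are moved by `E` is trivial. -/
lemma prod_eq_one [DecidableEq Ω] (hV : ∀ v : V, v * v = 1) {c : S → Ω → V} (hc : IsCoc c)
    (E : Subgroup S) [hEn : E.Normal] (hE : IsPGroup 2 E) (Q : Finset Ω) (hQ : ∀ s : S, ∀ q ∈ Q, s • q ∈ Q)
    (hmove : ∀ q ∈ Q, ∃ e ∈ E, e • q ≠ q) (h1 : ∀ q ∈ Q, ∀ e ∈ E, e • q = q → c e q = 1) (x : S) :
    ∏ q ∈ Q, c x q = 1 := by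
  classical
  let r : Ω → Ω := fun q => (Quotient.mk (orbitRel E Ω) q).out
  have hr : ∀ q, ∃ e : E, q = (e : S) • r q := by
    intro q
    obtain ⟨e, he⟩ := orbitRel_apply.mp (Quotient.mk_out (s := orbitRel E Ω) q)
    refine ⟨e⁻¹, ?_⟩
    have : r q = (e : S) • q := he.symm
    rw [this]; simp [Subgroup.coe_inv]
  choose ε hε using hr
  have hrQ : ∀ q ∈ Q, r q ∈ Q := by
    intro q hq
    have h := hQ ((ε q : S)⁻¹) q hq
    have e : ((ε q : S)⁻¹) • q = r q := inv_smul_eq_iff.mpr (hε q)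
    rwa [e] at h
  have hrr : ∀ (e : E) q, r ((e : S) • q) = r q := by
    intro e q
    simp only [r]
    congr 1
    exact Quotient.sound (orbitRel_apply.mpr ⟨e, rfl⟩)
  let f : Ω → V := fun q => c (ε q : S) (r q)
  have hf : ∀ q ∈ Q, ∀ a : E, q = (a : S) • r q → c (a : S) (r q) = f q := by
    intro q hq a ha
    have hfix : (((a⁻¹ * ε q : E) : S)) • r q = r q := by
      rw [Subgroup.coe_mul, Subgroup.coe_inv, mul_smul, ← hε q, inv_smul_eq_iff]; exact ha
    have h := hc (a : S) ((a⁻¹ * ε q : E) : S) (r q)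
    rw [hfix, h1 (r q) (hrQ q hq) _ (a⁻¹ * ε q).2 hfix, mul_one] at h
    rw [Subgroup.coe_mul, Subgroup.coe_inv, mul_inv_cancel_left] at h
    exact h.symm
  let c' : S → Ω → V := fun s q => c s q * (f (s • q) * f q)
  have hE' : ∀ e : E, ∀ q ∈ Q, c' (e : S) q = 1 := by
    intro e q hq
    have h := hf ((e : S) • q) (hQ _ q hq) (e * ε q) (by rw [hrr, Subgroup.coe_mul, mul_smul, ← hε q])
    rw [hrr, Subgroup.coe_mul, hc, ← hε q] at h
    simp only [c', ← h]
    calc c (e : S) q * (c (e : S) q * c (ε q : S) (r q) * f q)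
        = (c (e : S) q * c (e : S) q) * (f q * f q) := by simp [f, mul_assoc]
      _ = 1 := by rw [hV, hV, one_mul]
  have hc' : IsCoc c' := by
    intro s t q
    simp only [c']
    rw [hc s t q, mul_smul]
    calc c s (t • q) * c t q * (f (s • t • q) * f q)
        = c s (t • q) * c t q * (f (s • t • q) * f q) * (f (t • q) * f (t • q)) := by rw [hV, mul_one]
      _ = _ := by ac_rfl
  have hconst : ∀ (e : E) q, q ∈ Q → c' x ((e : S) • q) = c' x q := by
    intro e q hq
    have h1' := hc' x e q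
    rw [hE' e q hq, mul_one] at h1'
    have h2' := hc' (x * e * x⁻¹) x q
    rw [hE' ⟨_, hEn.conj_mem _ e.2 x⟩ _ (hQ x q hq), one_mul, inv_mul_cancel_right] at h2'
    rw [← h1', h2']
  have hsum : ∏ q ∈ Q, c x q = ∏ q ∈ Q, c' x q := by
    have hbij : ∏ q ∈ Q, f (x • q) = ∏ q ∈ Q, f q :=
      Finset.prod_nbij' (fun q => x • q) (fun q => x⁻¹ • q) (fun q hq => hQ x q hq) (fun q hq => hQ _ q hq)
        (fun q _ => by simp) (fun q _ => by simp) (fun q _ => rfl)
    simp only [c', Finset.prod_mul_distrib, hbij, hV, mul_one]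
  rw [hsum, ← Finset.prod_fiberwise_of_maps_to (g := r) hrQ]
  refine Finset.prod_eq_one fun p hp => ?_
  rw [Finset.prod_eq_pow_card (b := c' x p)]
  · rcases (Q.filter fun q => r q = p).eq_empty_or_nonempty with h | ⟨q₀, hq₀⟩
    · simp [h]
    obtain ⟨hq₀Q, hq₀p⟩ := Finset.mem_filter.mp hq₀
    have hcard : Nat.card (orbit E q₀) = (Q.filter fun q => r q = p).card := by
      rw [← Nat.card_eq_finsetCard]
      refine Nat.card_congr (Equiv.subtypeEquivRight fun q => ?_)
      rw [Finset.mem_filter]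
      constructor
      · rintro ⟨e, rfl⟩
        exact ⟨hQ _ q₀ hq₀Q, (hrr e q₀).trans hq₀p⟩
      · rintro ⟨-, hq⟩
        have := Quotient.exact (Quotient.out_inj.mp (hq.trans hq₀p.symm))
        exact orbitRel_apply.mp this
    obtain ⟨k, hk⟩ := orbit_card_even hE q₀ (hmove q₀ hq₀Q)
    rw [← hcard, hk, pow_add, hV]
  · intro q hq
    obtain ⟨hqQ, hqp⟩ := Finset.mem_filter.mp hq
    conv_lhs => rw [hε q]
    rw [hconst _ _ (hrQ q hqQ), hqp]

/-- The product over `Q` as a product over an invariant family of pairs of points in common orbits with equal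
stabilisers. -/
lemma exists_pairs [DecidableEq Ω] [Finite Ω] (hV : ∀ v : V, v * v = 1) (hS : IsPGroup 2 S)
    {c : S → Ω → V} (hc : IsCoc c) (E : Subgroup S) [hEn : E.Normal] (Q : Finset Ω)
    (hQ : ∀ s : S, ∀ q ∈ Q, s • q ∈ Q) (hmove : ∀ q ∈ Q, ∃ e ∈ E, e • q ≠ q) (x : S) :
    ∃ P : Finset (Finset Ω), IsCoc (fun (s : S) (T : Finset Ω) => ∏ q ∈ T, c s q) ∧
      (∀ s : S, ∀ T ∈ P, s • T ∈ P) ∧
      (∀ T ∈ P, ∃ a b, T = {a, b} ∧ a ∈ Q ∧ b ≠ a ∧ b ∈ orbit E a) ∧
      ∏ q ∈ Q, c x q = ∏ T ∈ P, ∏ q ∈ T, c x q := by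
  classical
  haveI : Fact (Nat.Prime 2) := ⟨Nat.prime_two⟩
  haveI : Fintype Ω := Fintype.ofFinite Ω
  have hE : IsPGroup 2 E := hS.to_subgroup E
  let R : Finset (Ω × Ω) := Finset.univ.filter fun p =>
    p.1 ∈ Q ∧ p.2 ≠ p.1 ∧ p.2 ∈ orbit E p.1 ∧ stabilizer S p.2 = stabilizer S p.1
  have hRQ : ∀ p ∈ R, p.1 ∈ Q := fun p hp => (Finset.mem_filter.mp hp).2.1
  -- every point of `Q` has an odd number of partners
  have hodd : ∀ q ∈ Q, Odd (R.filter fun p => p.1 = q).card := by
    intro q hq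
    let B := stabilizer S q
    have hBE : ∀ (b : B) (p : orbit E q), ((b : S) • (p : Ω)) ∈ orbit E q := by
      rintro b ⟨_, e, rfl⟩
      refine ⟨⟨(b : S) * e * (b : S)⁻¹, hEn.conj_mem _ e.2 b⟩, ?_⟩
      change ((b : S) * e * (b : S)⁻¹) • q = (b : S) • ((e : S) • q)
      have hb : (b : S)⁻¹ • q = q := inv_smul_eq_iff.mpr b.2.symm
      rw [mul_smul, hb, mul_smul]
    letI : MulAction B (orbit E q) :=
      { smul := fun b p => ⟨(b : S) • (p : Ω), hBE b p⟩
        one_smul := fun p => Subtype.ext (one_smul S (p : Ω))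
        mul_smul := fun a b p => Subtype.ext (mul_smul (a : S) (b : S) (p : Ω)) }
    have hfix := (hS.to_subgroup B).card_modEq_card_fixedPoints (orbit E q)
    obtain ⟨e₀, he₀, hne₀⟩ := hmove q hq
    have hev := orbit_card_even hE q ⟨e₀, he₀, hne₀⟩
    have hqfix : (⟨q, mem_orbit_self q⟩ : orbit E q) ∈ fixedPoints B (orbit E q) := fun b => Subtype.ext b.2
    have heq : (R.filter fun p => p.1 = q).card + 1 = Nat.card (fixedPoints B (orbit E q)) := by
      rw [Nat.card_eq_fintype_card, ← Set.toFinset_card,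
        ← Finset.card_erase_add_one (Set.mem_toFinset.mpr hqfix)]
      congr 1
      refine Finset.card_bij (fun p hp => ⟨p.2, by
        obtain ⟨hpR, rfl⟩ := Finset.mem_filter.mp hp
        exact (Finset.mem_filter.mp hpR).2.2.2.1⟩) ?_ ?_ ?_
      · intro p hp
        obtain ⟨hpR, rfl⟩ := Finset.mem_filter.mp hp
        obtain ⟨-, -, hne, -, hst⟩ := Finset.mem_filter.mp hpR
        rw [Finset.mem_erase, Set.mem_toFinset]
        refine ⟨fun h => hne (congrArg Subtype.val h), fun b => Subtype.ext ?_⟩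
        have : (b : S) ∈ stabilizer S p.2 := hst ▸ b.2
        exact this
      · intro p hp p' hp' h
        exact Prod.ext ((Finset.mem_filter.mp hp).2.trans (Finset.mem_filter.mp hp').2.symm) (congrArg Subtype.val h)
      · rintro ⟨q', hq'⟩ hm
        rw [Finset.mem_erase, Set.mem_toFinset] at hm
        refine ⟨(q, q'), Finset.mem_filter.mpr ⟨Finset.mem_filter.mpr ⟨Finset.mem_univ _, hq, ?_, hq', ?_⟩, rfl⟩, rfl⟩
        · intro h; exact hm.1 (Subtype.ext h)
        · refine (Subgroup.eq_of_le_of_card_ge (fun b hb => congrArg Subtype.val (hm.2 ⟨b, hb⟩)) ?_).symm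
          obtain ⟨e, he⟩ := hq'
          change (e : S) • q = q' at he
          rw [← he, stabilizer_smul_eq_stabilizer_map_conj,
            Subgroup.card_map_of_injective (MulEquiv.injective _)]
    unfold Nat.ModEq at hfix
    rw [Nat.odd_iff]
    rw [Nat.even_iff] at hev
    omega
  have hpair : ∏ q ∈ Q, c x q = ∏ p ∈ R, c x p.1 := by
    rw [← Finset.prod_fiberwise_of_maps_to (g := Prod.fst) hRQ]
    refine Finset.prod_congr rfl fun q hq => ?_
    rw [Finset.prod_congr rfl (g := fun _ => c x q) (fun p hp => by rw [(Finset.mem_filter.mp hp).2]),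
      Finset.prod_const]
    obtain ⟨k, hk⟩ := hodd q hq
    rw [hk, pow_succ, pow_mul, sq, hV, one_pow, one_mul]
  let pr : Ω × Ω → Finset Ω := fun p => {p.1, p.2}
  let P := R.image pr
  let C : S → Finset Ω → V := fun s T => ∏ q ∈ T, c s q
  have hpair' : ∏ p ∈ R, c x p.1 = ∏ T ∈ P, C x T := by
    rw [← Finset.prod_fiberwise_of_maps_to (g := pr) (fun p hp => Finset.mem_image_of_mem pr hp)]
    refine Finset.prod_congr rfl fun T hT => ?_
    obtain ⟨⟨a, b⟩, hab, rfl⟩ := Finset.mem_image.mp hT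
    obtain ⟨-, haQ, hba, hborb, hst⟩ := Finset.mem_filter.mp hab
    simp only [] at haQ hba hborb hst
    refine Finset.prod_nbij (fun p => p.1) ?_ ?_ ?_ (fun p _ => rfl)
    · intro p hp
      rw [← (Finset.mem_filter.mp hp).2]; simp [pr]
    · intro p hp p' hp' h
      simp only [Finset.coe_filter, Set.mem_setOf_eq] at hp hp'
      refine Prod.ext h ?_
      have h1 : p.2 ∈ pr p' := by rw [hp'.2, ← hp.2]; simp [pr]
      simp only [pr, Finset.mem_insert, Finset.mem_singleton] at h1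
      rcases h1 with h1 | h1
      · exact absurd (h1.trans (id h).symm) (Finset.mem_filter.mp hp.1).2.2.1
      · exact h1
    · intro q hq
      simp only [pr, Finset.coe_insert, Finset.coe_singleton, Set.mem_insert_iff, Set.mem_singleton_iff] at hq
      rcases hq with rfl | rfl
      · exact ⟨(q, b), by simp [hab], rfl⟩
      · refine ⟨(q, a), ?_, rfl⟩
        simp only [Finset.coe_filter, Set.mem_setOf_eq]
        refine ⟨Finset.mem_filter.mpr ⟨Finset.mem_univ _, ?_, hba.symm, ?_, hst.symm⟩, by simp [pr, Finset.pair_comm]⟩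
        · obtain ⟨e, rfl⟩ := hborb; exact hQ _ a haQ
        · rw [orbit_eq_iff.mpr hborb]; exact mem_orbit_self a
  have hCc : IsCoc C := by
    intro s t T
    simp only [C, hc s t, Finset.prod_mul_distrib]
    congr 1
    rw [← Finset.image_smul, Finset.prod_image fun a _ b _ h => smul_left_cancel t h]
  have hRinv : ∀ (s : S) p, p ∈ R → (s • p.1, s • p.2) ∈ R := by
    intro s p hp
    obtain ⟨-, h1, h2, ⟨e, he⟩, h4⟩ := Finset.mem_filter.mp hp
    refine Finset.mem_filter.mpr ⟨Finset.mem_univ _, hQ s _ h1, fun h => h2 (smul_left_cancel s h), ?_, ?_⟩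
    · refine ⟨⟨s * e * s⁻¹, hEn.conj_mem _ e.2 s⟩, ?_⟩
      change (s * (e : S) * s⁻¹) • (s • p.1) = s • p.2
      rw [← he, mul_smul, inv_smul_smul, mul_smul]
      rfl
    · change stabilizer S (s • p.2) = stabilizer S (s • p.1)
      rw [stabilizer_smul_eq_stabilizer_map_conj, stabilizer_smul_eq_stabilizer_map_conj, h4]
  refine ⟨P, hCc, ?_, ?_, hpair.trans hpair'⟩
  · intro s T hT
    obtain ⟨p, hp, rfl⟩ := Finset.mem_image.mp hT
    refine Finset.mem_image.mpr ⟨_, hRinv s p hp, ?_⟩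
    simp [pr, Finset.smul_finset_insert, Finset.smul_finset_singleton]
  · intro T hT
    obtain ⟨⟨a, b⟩, hp, rfl⟩ := Finset.mem_image.mp hT
    obtain ⟨-, haQ, hba, hborb, -⟩ := Finset.mem_filter.mp hp
    exact ⟨a, b, rfl, haQ, hba, hborb⟩

/-- The same for a cocycle only known to be trivial on squares and commutators in the stabilisers, provided all
orbits of `E` have at least three points. -/
lemma prod_eq_one_of_three [DecidableEq Ω] [Finite Ω] (hV : ∀ v : V, v * v = 1) (hS : IsPGroup 2 S)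
    {c : S → Ω → V} (hc : IsCoc c) (E : Subgroup S) [hEn : E.Normal] (Q : Finset Ω)
    (hQ : ∀ s : S, ∀ q ∈ Q, s • q ∈ Q) (hmove : ∀ q ∈ Q, ∀ q' : Ω, ∃ e ∈ E, e • q ≠ q ∧ e • q ≠ q')
    (hsq : ∀ q ∈ Q, ∀ e ∈ E, (e * e) • q = q → c (e * e) q = 1)
    (hcom : ∀ q ∈ Q, ∀ u ∈ E, ∀ v ∈ E, (u * v * u⁻¹ * v⁻¹) • q = q → c (u * v * u⁻¹ * v⁻¹) q = 1)
    (x : S) : ∏ q ∈ Q, c x q = 1 := by
  classical
  obtain ⟨P, hCc, hPinv, hP, hprod⟩ := exists_pairs hV hS hc E Q hQ
    (fun q hq => let ⟨e, he, h, _⟩ := hmove q hq q; ⟨e, he, h⟩) x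
  rw [hprod]
  refine prod_eq_one hV hCc E (hS.to_subgroup E) P hPinv ?_ ?_ x
  · intro T hT
    obtain ⟨a, b, rfl, haQ, hba, -⟩ := hP T hT
    obtain ⟨e, he, h1, h2⟩ := hmove a haQ b
    refine ⟨e, he, fun h => ?_⟩
    have : e • a ∈ ({a, b} : Finset Ω) := h ▸ Finset.smul_mem_smul_finset (by simp)
    simp [h1, h2] at this
  · intro T hT e he hfix
    obtain ⟨a, b, rfl, haQ, hba, f, hf⟩ := hP T hT
    change (f : S) • a = b at hf
    have hea : e • a ∈ ({a, b} : Finset Ω) := hfix ▸ Finset.smul_mem_smul_finset (by simp)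
    have heb : e • b ∈ ({a, b} : Finset Ω) := hfix ▸ Finset.smul_mem_smul_finset (by simp)
    simp only [Finset.mem_insert, Finset.mem_singleton] at hea heb
    simp only [Finset.prod_pair hba.symm]
    rcases hea with hea | hea
    · -- both points are fixed
      have hefa : e • b = b := (heb.resolve_left fun h => hba (smul_left_cancel e (h.trans hea.symm)))
      have hg : ((f : S)⁻¹ * e * f) • a = a := by rw [mul_smul, mul_smul, hf, hefa, ← hf, inv_smul_smul]
      have h1 := hc e f a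
      have h2 := hc f ((f : S)⁻¹ * e * f) a
      rw [hg, mul_assoc (f : S)⁻¹, mul_inv_cancel_left] at h2
      rw [hf] at h1
      have h3 : c e b = c ((f : S)⁻¹ * (e * f)) a := by
        have := h1.symm.trans h2
        rw [mul_comm (c (f : S) a)] at this
        exact mul_right_cancel this
      have h4 := hc e⁻¹ e a
      rw [inv_mul_cancel, hc.one, hea] at h4
      have h5 := hc e⁻¹ ((f : S)⁻¹ * (e * f)) a
      rw [← mul_assoc ((f : S)⁻¹), hg] at h5
      have h6 := hcom a haQ e⁻¹ (E.inv_mem he) (f : S)⁻¹ (E.inv_mem f.2) (by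
        rw [inv_inv, inv_inv, mul_assoc _ e, mul_assoc e⁻¹, ← mul_assoc _ e, mul_smul, hg, inv_smul_eq_iff,
          hea])
      rw [show e⁻¹ * ((f : S)⁻¹ * e * f) = e⁻¹ * (f : S)⁻¹ * e⁻¹⁻¹ * (f : S)⁻¹⁻¹ by group, h6] at h5
      rw [h3, ← mul_assoc ((f : S)⁻¹), eq_inv_of_mul_eq_one_right h5.symm,
        eq_inv_of_mul_eq_one_right h4.symm]
      exact hV _
    · have hebb : e • b = a := heb.resolve_right fun h => hba (smul_left_cancel e (hea.trans h.symm)).symm
      have h1 := hc e e a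
      rw [hea, hsq a haQ e he (by rw [mul_smul, hea, hebb])] at h1
      rw [mul_comm]; exact h1.symm

/-- The same when squares and commutators of `E` are central of exponent two and all orbits have more than four
points. -/
lemma prod_eq_one_of_five [DecidableEq Ω] [Finite Ω] (hV : ∀ v : V, v * v = 1) (hS : IsPGroup 2 S)
    {c : S → Ω → V} (hc : IsCoc c) (E : Subgroup S) [hEn : E.Normal] (Q : Finset Ω)
    (hQ : ∀ s : S, ∀ q ∈ Q, s • q ∈ Q)
    (hmove : ∀ q ∈ Q, ∀ A : Finset Ω, A.card ≤ 4 → ∃ e ∈ E, e • q ∉ A)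
    (hsq : ∀ e ∈ E, e * e * (e * e) = 1 ∧ ∀ f ∈ E, e * e * f = f * (e * e))
    (hcom : ∀ u ∈ E, ∀ v ∈ E, u * v * u⁻¹ * v⁻¹ * (u * v * u⁻¹ * v⁻¹) = 1 ∧
      ∀ f ∈ E, u * v * u⁻¹ * v⁻¹ * f = f * (u * v * u⁻¹ * v⁻¹))
    (x : S) : ∏ q ∈ Q, c x q = 1 := by
  classical
  have hmove' : ∀ q ∈ Q, ∃ e ∈ E, e • q ≠ q := fun q hq => by
    obtain ⟨e, he, h⟩ := hmove q hq {q} (by simp)
    exact ⟨e, he, by simpa using h⟩
  obtain ⟨P, hCc, hPinv, hP, hprod⟩ := exists_pairs hV hS hc E Q hQ hmove' x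
  rw [hprod]
  haveI : Fintype Ω := Fintype.ofFinite Ω
  -- an element squaring to one and centralising `E` contributes nothing to a pair that it fixes
  have key : ∀ T ∈ P, ∀ i : S, i * i = 1 → (∀ f ∈ E, i * f = f * i) → i • T = T → ∏ q ∈ T, c i q = 1 := by
    intro T hT i hii hiE hfix
    obtain ⟨a, b, rfl, haQ, hba, f, hf⟩ := hP T hT
    change (f : S) • a = b at hf
    rw [Finset.prod_pair hba.symm]
    have hia : i • a ∈ ({a, b} : Finset Ω) := hfix ▸ Finset.smul_mem_smul_finset (by simp)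
    simp only [Finset.mem_insert, Finset.mem_singleton] at hia
    rcases hia with hia | hia
    · have h1 := hc i f a
      have h2 := hc f i a
      rw [hia, ← hiE f f.2, h1, mul_comm (c (f : S) a)] at h2
      rw [hf] at h2
      rw [mul_right_cancel h2, hV]
    · have h1 := hc i i a
      rw [hia, hii, hc.one] at h1
      rw [mul_comm]; exact h1.symm
  refine prod_eq_one_of_three hV hS hCc E P hPinv ?_ (fun T hT e he h => key T hT _ (hsq e he).1 (hsq e he).2 h)
    (fun T hT u hu v hv h => key T hT _ (hcom u hu v hv).1 (hcom u hu v hv).2 h) x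
  intro T hT T'
  by_contra hno
  simp only [not_exists, not_and, not_not] at hno
  obtain ⟨a, b, hTe, haQ, -, -⟩ := hP T hT
  by_cases hT' : ∃ e ∈ E, e • T ≠ T
  · obtain ⟨e₀, he₀, hne₀⟩ := hT'
    have hT'2 : T'.card ≤ 2 := by
      rw [← hno e₀ he₀ hne₀]
      exact (Finset.card_smul_finset e₀ T).le.trans (hTe ▸ Finset.card_le_two)
    obtain ⟨e, he, hne⟩ := hmove a haQ (T ∪ T')
      ((Finset.card_union_le _ _).trans (Nat.add_le_add (hTe ▸ Finset.card_le_two) hT'2))
    have hmem : e • a ∈ e • T := Finset.smul_mem_smul_finset (by simp [hTe])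
    by_cases h : e • T = T
    · exact hne (Finset.mem_union_left _ (h ▸ hmem))
    · exact hne (Finset.mem_union_right _ (hno e he h ▸ hmem))
  · obtain ⟨e, he, hne⟩ := hmove a haQ T ((hTe ▸ Finset.card_le_two).trans (by norm_num))
    have hmem : e • a ∈ e • T := Finset.smul_mem_smul_finset (by simp [hTe])
    simp only [not_exists, not_and, not_not] at hT'
    exact hne (hT' e he ▸ hmem)

end CfsgLib.CocycleParity
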