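import Mathlib

/-!
Orders of centralizers of subgroups in groups whose commutators lie in a central subgroup of order two.
-/

namespace CfsgLib.CocycleParity

open Finset

/-- In a group with centre `{1, z}` and all commutators in it, a subgroup through `z` and its centralizer have product
of orders twice the group order. -/
lemma card_centralizer_mul {E : Type*} [Group E] [Finite E] (z : E) (hz1 : z ≠ 1)
    (hzc : ∀ a : E, z * a = a * z) (hzz : z * z = 1) (hab : ∀ a b : E, a * b = b * a ∨ a * b = z * (b * a))
    (hZ : ∀ a : E, (∀ b : E, b * a = a * b) → a = 1 ∨ a = z) (D : Subgroup E) (hzD : z ∈ D) :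
    Nat.card (Subgroup.centralizer (D : Set E)) * Nat.card D = 2 * Nat.card E := by
  classical
  haveI : Fintype E := Fintype.ofFinite E
  let ψ : E → E →* ℤ := fun a =>
    { toFun := fun b => if a * b = b * a then 1 else -1
      map_one' := by simp
      map_mul' := fun b c => by
        have hne : ∀ u v : E, z * (u * v) ≠ u * v := fun u v h => hz1 (mul_eq_right.mp h)
        rcases hab a b with h1 | h1 <;> rcases hab a c with h2 | h2
        · have h3 : a * (b * c) = b * c * a := by rw [← mul_assoc, h1, mul_assoc, h2, ← mul_assoc]
          simp [h1, h2, h3]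
        · have h3 : a * (b * c) = z * (b * c * a) := by
            rw [← mul_assoc, h1, mul_assoc, h2, ← mul_assoc b z, ← hzc b]; group
          have h4 : ¬ a * (b * c) = b * c * a := by rw [h3]; exact hne (b * c) a
          have h5 : ¬ a * c = c * a := by rw [h2]; exact hne c a
          simp [h1, h4, h5]
        · have h3 : a * (b * c) = z * (b * c * a) := by
            rw [← mul_assoc, h1, mul_assoc, mul_assoc, h2]; group
          have h4 : ¬ a * (b * c) = b * c * a := by rw [h3]; exact hne (b * c) a
          have h5 : ¬ a * b = b * a := by rw [h1]; exact hne b a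
          simp [h2, h4, h5]
        · have h3 : a * (b * c) = b * c * a := by
            rw [← mul_assoc, h1, mul_assoc, mul_assoc, h2, ← mul_assoc b z, ← hzc b]
            calc z * (z * b * (c * a)) = (z * z) * (b * c * a) := by group
              _ = b * c * a := by rw [hzz, one_mul]
          have h5 : ¬ a * b = b * a := by rw [h1]; exact hne b a
          have h6 : ¬ a * c = c * a := by rw [h2]; exact hne c a
          simp [h3, h5, h6] }
  have hψ : ∀ a b, ψ a b = if a * b = b * a then 1 else -1 := fun a b => rfl
  have hsym : ∀ a b, ψ a b = ψ b a := fun a b => by rw [hψ, hψ]; simp only [eq_comm]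
  have hone : ∀ a (b : E), ψ a b = 1 ↔ a * b = b * a := fun a b => by rw [hψ]; split_ifs with h <;> simp [h]
  -- sums along the rows
  have hrow : ∀ a, ∑ d : D, ψ a d = if a ∈ Subgroup.centralizer (D : Set E) then (Nat.card D : ℤ) else 0 := by
    intro a
    split_ifs with h
    · rw [Finset.sum_congr rfl (g := fun _ => (1 : ℤ)) (fun (d : D) _ => (hone a (d : E)).mpr
        ((Subgroup.mem_centralizer_iff.mp h) (d : E) d.2).symm)]
      simp [Nat.card_eq_fintype_card]
    · refine sum_hom_units_eq_zero ((ψ a).comp D.subtype) fun hc => h ?_
      rw [Subgroup.mem_centralizer_iff]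
      intro d hd
      exact ((hone a d).mp (DFunLike.congr_fun hc ⟨d, hd⟩)).symm
  -- sums along the columns
  have hcol : ∀ d : D, ∑ a : E, ψ a d = if (d : E) = 1 ∨ (d : E) = z then (Nat.card E : ℤ) else 0 := by
    intro d
    simp only [hsym _ (d : E)]
    split_ifs with h
    · rw [Finset.sum_congr rfl (g := fun _ => (1 : ℤ)) (fun a _ => (hone d a).mpr (by
        rcases h with h | h <;> simp [h, hzc a]))]
      simp [Nat.card_eq_fintype_card]
    · refine sum_hom_units_eq_zero (ψ d) fun hc => h (hZ d fun b => ?_)
      exact ((hone d b).mp (DFunLike.congr_fun hc b)).symm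
  have htot := Finset.sum_comm (f := fun (a : E) (d : D) => ψ a d) (s := Finset.univ) (t := Finset.univ)
  simp only [hrow, hcol, Finset.sum_ite, Finset.sum_const_zero, add_zero, Finset.sum_const, nsmul_eq_mul] at htot
  have hcC : (Finset.univ.filter fun a => a ∈ Subgroup.centralizer (D : Set E)).card =
      Nat.card (Subgroup.centralizer (D : Set E)) := by
    rw [Nat.card_eq_fintype_card, Fintype.card_subtype]
  have hc2 : (Finset.univ.filter fun d : D => (d : E) = 1 ∨ (d : E) = z).card = 2 := by
    rw [Finset.card_eq_two]
    refine ⟨1, ⟨z, hzD⟩, fun h => hz1 (congrArg Subtype.val h).symm, ?_⟩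
    ext ⟨d, hd⟩
    simp only [Finset.mem_filter, Finset.mem_univ, true_and, Finset.mem_insert, Finset.mem_singleton]
    constructor
    · rintro (h | h) <;> simp [h]
    · rintro (h | h) <;> simp [Subtype.mk.injEq] at h ⊢ <;> simp [h]
  rw [hcC, hc2] at htot
  exact_mod_cast htot

end CfsgLib.CocycleParity
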